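import Mathlib
import Cfsg.Agent.H95.BaerT7a
import Cfsg.Agent.H72.BaerBasic
import Cfsg.Agent.S3972
import Cfsg.Agent.S0675

/-!
# S4125-T7: the cyclic Sylow `p`-subgroup case of Lemma T
-/

set_option autoImplicit false
set_option linter.style.haveILetI false

open Cfsg.Agent.H72.BaerT

namespace Cfsg.Agent.H95.Baer

universe u

variable {p q : ℕ} {V : Type u} [CommGroup V] [Finite V] {A P : Subgroup (MulAut V)}

omit [Finite V] in
theorem normalIn_map (M : Subgroup A) (hM : M.Normal) : NormalIn (M.map A.subtype) A := by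
  refine ⟨?_, ?_⟩
  · rintro _ ⟨x, _, rfl⟩; exact x.2
  · rintro a ha _ ⟨x, hx, rfl⟩
    exact ⟨⟨a, ha⟩ * x * ⟨a, ha⟩⁻¹, hM.conj_mem x hx ⟨a, ha⟩, rfl⟩

theorem hcop_of_TH (h : TH p q V A) (M : Subgroup A) (hM : M.Normal)
    (hc : (Nat.card M).Coprime p) : M = ⊥ := by
  have hcard : Nat.card (M.map A.subtype) = Nat.card M :=
    Subgroup.card_map_of_injective A.subtype_injective
  have h1 := h.eq_bot_of_coprime (normalIn_map M hM) (by rw [hcard]; exact hc)
  exact (Subgroup.map_eq_bot_iff_of_injective M A.subtype_injective).mp h1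

omit [Finite V] in
theorem hih_of_MC (h : MC p q V A P) (M : Subgroup A) (hM : M.Normal) (hne : M ≠ ⊤) :
    Group.IsSolvable M := by
  have hne' : M.map A.subtype ≠ A := by
    intro heq; apply hne
    rw [eq_top_iff]; intro x _
    have hx : (x : MulAut V) ∈ M.map A.subtype := by rw [heq]; exact x.2
    obtain ⟨y, hy, hyx⟩ := hx
    have hyx' : y = x := Subtype.ext hyx
    rw [← hyx']; exact hy
  haveI := h.ih _ (normalIn_map M hM) hne'
  exact Group.isSolvable_of_isSolvable_injective
    (f := (M.equivMapOfInjective A.subtype A.subtype_injective).toMonoidHom)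
    (MulEquiv.injective _)

omit [Finite V] in
theorem comm_of_cyclic (hc : IsCyclic P) : ∀ a ∈ P, ∀ b ∈ P, a * b = b * a := by
  intro a ha b hb
  obtain ⟨g, hg⟩ := IsCyclic.exists_generator (α := P)
  obtain ⟨i, hi⟩ := Subgroup.mem_zpowers_iff.mp (hg ⟨a, ha⟩)
  obtain ⟨j, hj⟩ := Subgroup.mem_zpowers_iff.mp (hg ⟨b, hb⟩)
  have hi' : (g : MulAut V) ^ i = a := by simpa using congrArg Subtype.val hi
  have hj' : (g : MulAut V) ^ j = b := by simpa using congrArg Subtype.val hj
  rw [← hi', ← hj', ← zpow_add, ← zpow_add, add_comm]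

omit [Finite V] in
theorem semireg (h : MC p q V A P) (hc : IsCyclic P) :
    ∀ g ∈ P, g ≠ 1 → ∀ v : V, g v = v → v = 1 := by
  intro g hg hg1 v hv
  exact h.fpf hg1 (fun g' hg' => comm_of_cyclic hc g' hg' g hg) hv

theorem orbit_eq (h : MC p q V A P) (v : V) : MulAction.orbit A v = MulAction.orbit P v := by
  apply Set.Subset.antisymm
  · rintro _ ⟨a, rfl⟩
    obtain ⟨g, hg, hgv⟩ := h.th.orbit_syl h.syl a.1 a.2 v
    exact mem_orbit_subgroup_iff.mpr ⟨g, hg, hgv.symm⟩
  · exact orbit_subgroup_mono h.syl.1 v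

theorem card_orbit_eq (h : MC p q V A P)
    (hsemi : ∀ g ∈ P, g ≠ 1 → ∀ v : V, g v = v → v = 1) {v : V} (hv : v ≠ 1) :
    Nat.card (MulAction.orbit A v) = Nat.card P := by
  rw [orbit_eq h v]
  symm
  apply Nat.card_congr
  refine Equiv.ofBijective
    (fun g : P => (⟨g • v, MulAction.mem_orbit v g⟩ : MulAction.orbit P v)) ⟨?_, ?_⟩
  · intro g g' hgg
    have h1 : (g : MulAut V) v = (g' : MulAut V) v := congrArg Subtype.val hgg
    by_contra hne
    have h2 : ((g' : MulAut V)⁻¹ * (g : MulAut V)) v = v := by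
      show (g' : MulAut V)⁻¹ ((g : MulAut V) v) = v
      rw [h1]; exact (g' : MulAut V).symm_apply_apply v
    have h3 : (g' : MulAut V)⁻¹ * (g : MulAut V) ≠ 1 := by
      intro h4; apply hne
      have h5 := inv_mul_eq_one.mp h4
      exact Subtype.ext h5.symm
    exact hv (hsemi _ (P.mul_mem (P.inv_mem g'.2) g.2) h3 v h2)
  · rintro ⟨_, ⟨g, rfl⟩⟩
    exact ⟨g, rfl⟩

theorem odd_card (h : MC p q V A P) (hp2 : p ≠ 2)
    (hsemi : ∀ g ∈ P, g ≠ 1 → ∀ v : V, g v = v → v = 1) : Odd (Nat.card A) := by
  rw [← Nat.not_even_iff_odd]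
  intro heven
  have hq := h.th.hq
  by_cases hq2 : q = 2
  · have h1 := h.th.hA
    rw [hq2] at h1
    have h2 := Nat.Coprime.eq_one_of_dvd h1.symm heven.two_dvd
    omega
  · obtain ⟨t, ht⟩ := exists_prime_orderOf_dvd_card' 2 heven.two_dvd
    have ht1 : (t : MulAut V) ≠ 1 := by
      intro h1
      have h2 : t = 1 := Subtype.ext h1
      rw [h2, orderOf_one] at ht
      omega
    obtain ⟨v, hv⟩ : ∃ v, (t : MulAut V) v ≠ v := by
      by_contra hcon; push Not at hcon; exact ht1 (MulEquiv.ext hcon)
    have htt2 : (t : MulAut V) * (t : MulAut V) = 1 := by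
      have h1 := pow_orderOf_eq_one t
      rw [ht, pow_two] at h1
      exact congrArg Subtype.val h1
    have htt : (t : MulAut V) ((t : MulAut V) v) = v := by
      calc (t : MulAut V) ((t : MulAut V) v) = ((t : MulAut V) * (t : MulAut V)) v := rfl
        _ = v := by rw [htt2]; rfl
    have hw1 : v * ((t : MulAut V) v)⁻¹ ≠ 1 := by
      intro h1; apply hv; rw [mul_inv_eq_one] at h1; exact h1.symm
    have htw : (t : MulAut V) (v * ((t : MulAut V) v)⁻¹) = (v * ((t : MulAut V) v)⁻¹)⁻¹ := by
      rw [map_mul, map_inv, htt, mul_inv_rev, inv_inv]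
    obtain ⟨g, hg, hgw⟩ := h.th.orbit_syl h.syl t.1 t.2 (v * ((t : MulAut V) v)⁻¹)
    generalize v * ((t : MulAut V) v)⁻¹ = w at hw1 htw hgw
    have hg2 : (g * g) w = w := by
      show g (g w) = w
      rw [← hgw, htw, map_inv, ← hgw, htw, inv_inv]
    have hgg : g * g = 1 := by
      by_contra hne
      exact hw1 (hsemi _ (P.mul_mem hg hg) hne w hg2)
    have hg1 : g = 1 := by
      obtain ⟨k, hk⟩ := h.syl.2.1 ⟨g, hg⟩
      have hk' : g ^ (p ^ k) = 1 := by simpa using congrArg Subtype.val hk
      have ho1 : orderOf g ∣ p ^ k := orderOf_dvd_of_pow_eq_one hk'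
      have ho2 : orderOf g ∣ 2 := orderOf_dvd_of_pow_eq_one (by rw [pow_two]; exact hgg)
      have hcop : Nat.Coprime (p ^ k) 2 :=
        Nat.Coprime.pow_left k ((Nat.coprime_primes h.th.hp Nat.prime_two).mpr hp2)
      exact orderOf_eq_one_iff.mp (Nat.eq_one_of_dvd_coprimes hcop ho1 ho2)
    rw [hg1] at hgw
    have hww : w⁻¹ = w := by rw [← htw, hgw]; rfl
    have hw2 : w ^ 2 = 1 := by
      rw [pow_two]; nth_rewrite 1 [← hww]; exact inv_mul_cancel w
    have hwq : w ^ q = 1 := h.exp w
    have ho1 : orderOf w ∣ 2 := orderOf_dvd_of_pow_eq_one hw2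
    have ho2 : orderOf w ∣ q := orderOf_dvd_of_pow_eq_one hwq
    have hcop : Nat.Coprime 2 q := (Nat.coprime_primes Nat.prime_two hq).mpr (Ne.symm hq2)
    exact hw1 (orderOf_eq_one_iff.mp (Nat.eq_one_of_dvd_coprimes hcop ho1 ho2))

/-- **S4125-T7**: in the minimal-counterexample context of Lemma T, if the Sylow `p`-subgroup
`P` of `A` is cyclic then `A` is solvable. -/
theorem solvable_of_cyclic (h : MC p q V A P) (hc : IsCyclic P) : Group.IsSolvable A := by
  have hp := h.th.hp
  haveI : Fact p.Prime := ⟨hp⟩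
  have hPA := h.syl.1
  have hcardA : Nat.card P * P.relIndex A = Nat.card A := by
    have h1 := (P.subgroupOf A).card_mul_index
    rwa [Nat.card_congr (Subgroup.subgroupOfEquivOfLe hPA).toEquiv] at h1
  by_cases hPbot : P = ⊥
  · have hcop : (Nat.card A).Coprime p := by
      rw [← hcardA, hPbot, Subgroup.card_bot, one_mul]
      exact ((Nat.Prime.coprime_iff_not_dvd hp).mpr (hPbot ▸ h.syl.2.2)).symm
    have hA := h.th.eq_bot_of_coprime (NormalIn.refl A) hcop
    haveI : Subsingleton A := by rw [hA]; infer_instance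
    infer_instance
  let P' : Sylow p A :=
    (h.syl.2.1.comap_of_injective A.subtype A.subtype_injective).toSylow h.syl.2.2
  have hc' : IsCyclic (P' : Subgroup A) := by
    haveI := hc
    exact isCyclic_of_surjective (Subgroup.subgroupOfEquivOfLe hPA).symm.toMonoidHom
      (Subgroup.subgroupOfEquivOfLe hPA).symm.surjective
  have hcop := hcop_of_TH h.th
  have hih := hih_of_MC h
  obtain ⟨g, hg⟩ := IsCyclic.exists_generator (α := (P' : Subgroup A))
  have hgen : ∀ y ∈ (P' : Subgroup A), y ∈ Subgroup.zpowers (g : A) := by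
    intro y hy
    obtain ⟨j, hj⟩ := Subgroup.mem_zpowers_iff.mp (hg ⟨y, hy⟩)
    exact Subgroup.mem_zpowers_iff.mpr ⟨j, by simpa using congrArg Subtype.val hj⟩
  have hgord : orderOf (g : A) = Nat.card P := by
    rw [Subgroup.orderOf_coe, orderOf_eq_card_of_forall_mem_zpowers hg]
    exact Nat.card_congr (Subgroup.subgroupOfEquivOfLe hPA).toEquiv
  obtain ⟨n, hn⟩ := IsPGroup.iff_card.mp h.syl.2.1
  have hn0 : n ≠ 0 := by
    intro h0; apply hPbot; rw [h0, pow_zero] at hn; exact Subgroup.card_eq_one.mp hn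
  by_cases hp2 : p = 2
  · -- `p = 2`: Burnside transfer
    have hk : ∀ x ∈ Subgroup.normalizer ((P' : Subgroup A) : Set A),
        ∃ k : ℕ, k ≡ 1 [MOD p] ∧ x * (g : A) * x⁻¹ = (g : A) ^ k := by
      intro x hx
      have h1 : x * (g : A) * x⁻¹ ∈ (P' : Subgroup A) :=
        (Subgroup.mem_normalizer_iff.mp hx (g : A)).mp g.2
      have h2 := hgen _ h1
      rw [← mem_powers_iff_mem_zpowers] at h2
      obtain ⟨k, hk⟩ := h2
      have hk' : (g : A) ^ k = x * (g : A) * x⁻¹ := hk
      refine ⟨k, ?_, hk'.symm⟩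
      rw [hp2]
      by_contra hkev
      have hkev' : 2 ∣ k := by
        rcases Nat.even_or_odd k with he | ho
        · exact he.two_dvd
        · exfalso; apply hkev; exact Nat.odd_iff.mp ho
      obtain ⟨k', rfl⟩ := hkev'
      have ho : orderOf (x * (g : A) * x⁻¹) = orderOf (g : A) :=
        (MulAut.conj x).orderOf_eq (g : A)
      rw [← hk', hgord, hn] at ho
      have h2n : (g : A) ^ (p ^ n) = 1 := by
        rw [← hn, ← hgord]; exact pow_orderOf_eq_one _
      have h7 : p ^ n = p ^ (n - 1) * p := by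
        rw [← pow_succ, Nat.sub_add_cancel (Nat.one_le_iff_ne_zero.mpr hn0)]
      have h3 : ((g : A) ^ (2 * k')) ^ (p ^ (n - 1)) = 1 := by
        have he : 2 * k' * p ^ (n - 1) = p ^ n * k' := by
          rw [h7, hp2]; ring
        rw [← pow_mul, he, pow_mul, h2n, one_pow]
      have h4 := orderOf_dvd_of_pow_eq_one h3
      rw [ho] at h4
      have h5 : p ^ n ≤ p ^ (n - 1) := Nat.le_of_dvd (pow_pos hp.pos _) h4
      have h6 : p ^ (n - 1) < p ^ n := Nat.pow_lt_pow_right hp.one_lt (by omega)
      omega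
    have htop := sylow_eq_top_of_cyclic P' (g : A) hgen g.2 hk hcop
    exact solvable_of_zpowers (g : A) (fun y => hgen y (by rw [htop]; trivial))
  · -- `p` odd: permutation representation on an orbit
    have hsemi := semireg h hc
    obtain ⟨g1, hg1P, hg1ne⟩ : ∃ g1 ∈ P, g1 ≠ 1 := by
      by_contra hcon; push Not at hcon
      exact hPbot ((Subgroup.eq_bot_iff_forall P).mpr hcon)
    obtain ⟨v0, hv0⟩ : ∃ v0, g1 v0 ≠ v0 := by
      by_contra hcon; push Not at hcon; exact hg1ne (MulEquiv.ext hcon)
    have hv01 : v0 ≠ 1 := by rintro rfl; exact hv0 (map_one g1)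
    have hOcard : Nat.card (MulAction.orbit A v0) = p ^ n := by
      rw [card_orbit_eq h hsemi hv01, hn]
    have hodd := odd_card h hp2 hsemi
    let φ : A →* Equiv.Perm (MulAction.orbit A v0) := MulAction.toPermHom A (MulAction.orbit A v0)
    have hφinj : Function.Injective φ := by
      rw [← MonoidHom.ker_eq_bot_iff]
      apply hcop φ.ker (MonoidHom.normal_ker φ)
      have hstab : Nat.card (MulAction.stabilizer A v0) = P.relIndex A := by
        have h1 := (MulAction.stabilizer A v0).card_mul_index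
        rw [MulAction.index_stabilizer, ← Nat.card_coe_set_eq, hOcard, ← hcardA, hn,
          mul_comm] at h1
        exact Nat.eq_of_mul_eq_mul_left (pow_pos hp.pos n) h1
      have hle : φ.ker ≤ MulAction.stabilizer A v0 := by
        intro a ha
        rw [MonoidHom.mem_ker] at ha
        rw [MulAction.mem_stabilizer_iff]
        have h1 := congrArg (fun σ : Equiv.Perm (MulAction.orbit A v0) =>
          ((σ ⟨v0, MulAction.mem_orbit_self v0⟩ : MulAction.orbit A v0) : V)) ha
        simpa [φ] using h1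
      have hdvd := Subgroup.card_dvd_of_le hle
      rw [hstab] at hdvd
      exact Nat.Coprime.coprime_dvd_left hdvd
        ((Nat.Prime.coprime_iff_not_dvd hp).mpr h.syl.2.2).symm
    have hrinj : Function.Injective φ.rangeRestrict := by
      intro a b hab
      exact hφinj (congrArg Subtype.val hab)
    haveI htr : MulAction.IsPretransitive φ.range (MulAction.orbit A v0) := by
      constructor
      intro x y
      obtain ⟨a, ha⟩ := MulAction.exists_smul_eq A x y
      exact ⟨⟨φ a, a, rfl⟩, ha⟩
    have h2 : ¬ MulAction.IsMultiplyPretransitive φ.range (MulAction.orbit A v0) 2 := by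
      intro h2
      rw [MulAction.is_two_pretransitive_iff] at h2
      let x : MulAction.orbit A v0 := ⟨v0, MulAction.mem_orbit_self v0⟩
      let y : MulAction.orbit A v0 := ⟨g1 v0, ⟨⟨g1, hPA hg1P⟩, rfl⟩⟩
      have hxy : x ≠ y := fun hxy => hv0 (congrArg Subtype.val hxy).symm
      obtain ⟨σ, hσ1, hσ2⟩ := h2 hxy hxy.symm
      have hσodd : Odd (orderOf σ) := by
        have h1 : orderOf σ ∣ Nat.card φ.range := orderOf_dvd_natCard σ
        have h2 : Nat.card φ.range = Nat.card A :=
          Nat.card_congr (MonoidHom.ofInjective hφinj).symm.toEquiv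
        rw [h2] at h1
        exact Odd.of_dvd_nat hodd h1
      obtain ⟨j, hj⟩ := hσodd
      have hσ : σ = (σ ^ 2) ^ (j + 1) := by
        rw [← pow_mul, show 2 * (j + 1) = (2 * j + 1) + 1 by ring, pow_succ, ← hj,
          pow_orderOf_eq_one, one_mul]
      have hfix : σ ^ 2 • x = x := by rw [pow_two, mul_smul, hσ1, hσ2]
      have hfix' : ∀ i : ℕ, (σ ^ 2) ^ i • x = x := by
        intro i
        induction i with
        | zero => simp
        | succ i ih => rw [pow_succ, mul_smul, hfix, ih]
      have hσx : σ • x = x := by rw [hσ]; exact hfix' (j + 1)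
      exact hxy (hσx.symm.trans hσ1)
    have hg'ord : orderOf (φ.rangeRestrict (g : A)) = p ^ n := by
      rw [orderOf_injective φ.rangeRestrict hrinj, hgord, hn]
    letI : Fintype (MulAction.orbit A v0) := Fintype.ofFinite _
    classical
    have hOcard' : Fintype.card (MulAction.orbit A v0) = p ^ n := by
      rw [← Nat.card_eq_fintype_card]; exact hOcard
    rcases Nat.lt_or_ge n 2 with hn1 | hn2
    · have hn1' : n = 1 := by omega
      have hprime : (Fintype.card (MulAction.orbit A v0)).Prime := by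
        rw [hOcard', hn1', pow_one]; exact hp
      rcases Cfsg.Agent.S0675.result hprime φ.range with hs | h2'
      · haveI := hs
        exact Group.isSolvable_of_isSolvable_injective (f := φ.rangeRestrict) hrinj
      · exact absurd h2' h2
    · have hres := (Cfsg.Agent.S3972.result p n hp hn2 hOcard' φ.range htr h2
        (φ.rangeRestrict (g : A)) hg'ord).2
      have hNn : ((Subgroup.normalClosure
          ({(φ.rangeRestrict (g : A)) ^ (p ^ (n - 1))} : Set φ.range)).comap
          φ.rangeRestrict).Normal :=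
        Subgroup.Normal.comap Subgroup.normalClosure_normal _
      have hNtop : (Subgroup.normalClosure
          ({(φ.rangeRestrict (g : A)) ^ (p ^ (n - 1))} : Set φ.range)).comap
          φ.rangeRestrict ≠ ⊤ := by
        intro htop
        apply hres
        have hnc : Subgroup.normalClosure
            ({(φ.rangeRestrict (g : A)) ^ (p ^ (n - 1))} : Set φ.range) = ⊤ := by
          have h1 := Subgroup.map_comap_eq_self_of_surjective φ.rangeRestrict_surjective
            (Subgroup.normalClosure
              ({(φ.rangeRestrict (g : A)) ^ (p ^ (n - 1))} : Set φ.range))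
          rw [htop, Subgroup.map_top_of_surjective _ φ.rangeRestrict_surjective] at h1
          exact h1.symm
        rw [hnc]
        constructor
        intro x y
        obtain ⟨σ, hσ⟩ := MulAction.exists_smul_eq φ.range x y
        exact ⟨⟨σ, Subgroup.mem_top σ⟩, hσ⟩
      have hNbot : (Subgroup.normalClosure
          ({(φ.rangeRestrict (g : A)) ^ (p ^ (n - 1))} : Set φ.range)).comap
          φ.rangeRestrict ≠ ⊥ := by
        intro hbot
        have hmem : (g : A) ^ (p ^ (n - 1)) ∈ (Subgroup.normalClosure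
            ({(φ.rangeRestrict (g : A)) ^ (p ^ (n - 1))} : Set φ.range)).comap
            φ.rangeRestrict := by
          rw [Subgroup.mem_comap, map_pow]
          exact Subgroup.subset_normalClosure (Set.mem_singleton _)
        rw [hbot, Subgroup.mem_bot] at hmem
        have h1 := orderOf_dvd_of_pow_eq_one hmem
        rw [hgord, hn] at h1
        have h5 : p ^ n ≤ p ^ (n - 1) := Nat.le_of_dvd (pow_pos hp.pos _) h1
        have h6 : p ^ (n - 1) < p ^ n := Nat.pow_lt_pow_right hp.one_lt (by omega)
        omega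
      exact solvable_of_normal_proper P' hc' hcop hih _ hNn hNtop hNbot

end Cfsg.Agent.H95.Baer
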