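import Cfsg.Agent.H23.IcDefs
import Cfsg.Agent.H23.BN2
import Cfsg.Agent.H8BN2

/-!
# IC-COAT (piece for helper23's S5751 project)

`P_J` (all nodes but the branch node) is a maximal subgroup of `E8(2)`, not normalized by `n_3`:
overgroups of `B` are parabolic (`H8BN.eq_parabolic_of_le`) and parabolics are self-normalizing
(`H8BN.normalizer_parabolic`), in the (B,N)-pair `H23.bnPair`.
-/

set_option autoImplicit false

namespace Cfsg.Agent.H95.Ic

open Cfsg.Lie Cfsg.Agent.H23 Cfsg.Agent.H23.Ic

theorem coat : StCoat := by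
  intro hnot hn
  have hB : (bnPair hPk).B = (chevE8.borelSubgroup (ZMod 2)).subgroupOf GE := bnPair_B hPk
  have hSmem : ∀ s : ↥GE, s ∈ (bnPair hPk).S ↔ ∃ i < chevE8.rank,
      (((s : GLE)) : Matrix chevE8.Idx chevE8.Idx (ZMod 2)) =
        chevE8.nMat (ZMod 2) (chevE8.simple i) 1 := by
    intro s
    rw [bnPair_S hPk]
    exact Iff.rfl
  have hBorel : chevE8.borelSubgroup (ZMod 2) ≤ Pj := le_sup_left
  have hBM : (bnPair hPk).B ≤ Pj.subgroupOf GE := by
    rw [hB]
    intro x hx
    rw [Subgroup.mem_subgroupOf] at hx ⊢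
    exact hBorel hx
  -- the generators of `S` other than `n_3` lie in `P_J`; the remaining one is `n_3`
  have hSdich : ∀ s : ↥GE, s ∈ (bnPair hPk).S →
      s ∈ Pj.subgroupOf GE ∨ s = (⟨nn 3, hn⟩ : ↥GE) := by
    intro s hs
    obtain ⟨i, hi, hmat⟩ := (hSmem s).1 hs
    by_cases hi3 : i = 3
    · right
      apply Subtype.ext
      apply Units.ext
      rw [hmat, hi3]
      exact (nU_val hS (chevE8.simple 3) 1).symm
    · left
      rw [Subgroup.mem_subgroupOf]
      have hcl : (s : GLE) ∈ Subgroup.closure {g : GLE | ∃ j ∈ JJ, j < chevE8.rank ∧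
          (g : Matrix chevE8.Idx chevE8.Idx (ZMod 2)) =
            chevE8.nMat (ZMod 2) (chevE8.simple j) 1} :=
        Subgroup.subset_closure ⟨i, hi3, hi, hmat⟩
      have hle : Subgroup.closure {g : GLE | ∃ j ∈ JJ, j < chevE8.rank ∧
          (g : Matrix chevE8.Idx chevE8.Idx (ZMod 2)) =
            chevE8.nMat (ZMod 2) (chevE8.simple j) 1} ≤ Pj := le_sup_right
      exact hle hcl
  have hg3 : (⟨nn 3, hn⟩ : ↥GE) ∉ Pj.subgroupOf GE := by
    intro h
    rw [Subgroup.mem_subgroupOf] at h
    exact hnot h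
  refine ⟨?_, ?_⟩
  · -- coatom
    refine ⟨?_, ?_⟩
    · intro htop
      apply hg3
      rw [htop]
      exact Subgroup.mem_top _
    · intro M hlt
      have hle : Pj.subgroupOf GE ≤ M := hlt.le
      -- `M` is a parabolic subgroup
      have hBM' : (bnPair hPk).B ≤ M := hBM.trans hle
      have hpar := Cfsg.H8BN.eq_parabolic_of_le (bnPair hPk) M hBM'
      have hg3M : (⟨nn 3, hn⟩ : ↥GE) ∈ M := by
        by_contra hcon
        apply lt_irrefl (Pj.subgroupOf GE)
        apply lt_of_lt_of_le hlt
        rw [hpar]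
        unfold Cfsg.BNPair.parabolic
        apply sup_le hBM
        rw [Subgroup.closure_le]
        rintro s ⟨hsS, hsM⟩
        rcases hSdich s hsS with h | h
        · exact h
        · exact absurd (h ▸ hsM) hcon
      -- so `M` contains `B` and `N`
      rw [eq_top_iff, ← (bnPair hPk).sup_eq_top]
      apply sup_le hBM'
      rw [← (bnPair hPk).closure_sup]
      apply sup_le
      · rw [Subgroup.closure_le]
        intro s hsS
        rcases hSdich s hsS with h | h
        · exact hle h
        · rw [h]; exact hg3M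
      · exact inf_le_left.trans hBM'
  · -- not normalized by `n_3`
    intro heq
    apply hg3
    have hnorm : (⟨nn 3, hn⟩ : ↥GE) ∈ Subgroup.normalizer ((Pj.subgroupOf GE : Subgroup ↥GE) : Set ↥GE) := by
      rw [Subgroup.mem_normalizer_iff]
      intro h
      constructor
      · intro hh
        have h1 : (MulAut.conj (⟨nn 3, hn⟩ : ↥GE)).toMonoidHom h ∈
            (Pj.subgroupOf GE).map (MulAut.conj (⟨nn 3, hn⟩ : ↥GE)).toMonoidHom :=
          Subgroup.mem_map_of_mem _ hh
        rw [heq] at h1
        simpa using h1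
      · intro hh
        rw [← heq] at hh
        obtain ⟨h', hh', he⟩ := hh
        have : h' = h := by
          apply (MulAut.conj (⟨nn 3, hn⟩ : ↥GE)).injective
          simpa using he
        rw [← this]
        exact hh'
    have hpar := Cfsg.H8BN.eq_parabolic_of_le (bnPair hPk) (Pj.subgroupOf GE) hBM
    rw [hpar] at hnorm ⊢
    rw [Cfsg.H8BN.normalizer_parabolic] at hnorm
    exact hnorm

example : StCoat := coat

end Cfsg.Agent.H95.Ic

#print axioms Cfsg.Agent.H95.Ic.coat
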