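import Mathlib

set_option autoImplicit false
set_option linter.unusedSectionVars false
set_option linter.unusedVariables false

/-! Helper lemmas (helper95): distinguishing sets for a group action and invariant graphs, towards
a lower bound for the minimal degree of a primitive permutation group. -/

namespace Cfsg.Agent.H95

open MulAction

section Sep

variable {G Ω : Type*} [Group G] [MulAction G Ω]

/-- The point `c` separates `a` and `b`: no element of the stabiliser of `c` maps `a` to `b`. -/
def Sep (G : Type*) {Ω : Type*} [Group G] [MulAction G Ω] (a b c : Ω) : Prop :=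
  ¬ ∃ g : G, g • c = c ∧ g • a = b

lemma sep_symm {a b c : Ω} (h : Sep G a b c) : Sep G b a c := by
  rintro ⟨g, hc, hab⟩
  apply h
  refine ⟨g⁻¹, ?_, ?_⟩
  · rw [inv_smul_eq_iff, hc]
  · rw [inv_smul_eq_iff, hab]

lemma sep_smul (h : G) {a b c : Ω} : Sep G (h • a) (h • b) (h • c) ↔ Sep G a b c := by
  constructor
  · rintro hs ⟨g, hc, hab⟩
    apply hs
    refine ⟨h * g * h⁻¹, ?_, ?_⟩
    · rw [mul_smul, mul_smul, inv_smul_smul, hc]
    · rw [mul_smul, mul_smul, inv_smul_smul, hab]
  · rintro hs ⟨g, hc, hab⟩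
    apply hs
    refine ⟨h⁻¹ * g * h, ?_, ?_⟩
    · rw [mul_smul, mul_smul, hc, inv_smul_smul]
    · rw [mul_smul, mul_smul, hab, inv_smul_smul]

lemma sep_triangle {a b e c : Ω} (h : Sep G a e c) : Sep G a b c ∨ Sep G b e c := by
  by_contra hcon
  push Not at hcon
  obtain ⟨h1, h2⟩ := hcon
  unfold Sep at h1 h2
  push Not at h1 h2
  obtain ⟨g₁, hc₁, hab⟩ := h1
  obtain ⟨g₂, hc₂, hbe⟩ := h2
  apply h
  exact ⟨g₂ * g₁, by rw [mul_smul, hc₁, hc₂], by rw [mul_smul, hab, hbe]⟩

lemma sep_self_left {a b : Ω} (hab : a ≠ b) : Sep G a b a := by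
  rintro ⟨g, hc, h⟩
  exact hab (hc.symm.trans h)

lemma not_sep_self (a c : Ω) : ¬ Sep G a a c := by
  intro h
  exact h ⟨1, one_smul _ _, one_smul _ _⟩

lemma not_sep_of_fixed {x : G} {c : Ω} (a : Ω) (hc : x • c = c) : ¬ Sep G a (x • a) c := by
  intro h
  exact h ⟨x, hc, rfl⟩

variable [Fintype Ω]

open scoped Classical in
/-- The number of points separating `a` and `b`. -/
noncomputable def dcard (G : Type*) {Ω : Type*} [Group G] [MulAction G Ω] [Fintype Ω] (a b : Ω) : ℕ :=
  (Finset.univ.filter (fun c => Sep G a b c)).card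

lemma dcard_symm (a b : Ω) : dcard G a b = dcard G b a := by
  classical
  unfold dcard
  congr 1
  ext c
  simp only [Finset.mem_filter, Finset.mem_univ, true_and]
  exact ⟨sep_symm, sep_symm⟩

lemma dcard_smul (h : G) (a b : Ω) : dcard G (h • a) (h • b) = dcard G a b := by
  classical
  unfold dcard
  symm
  apply Finset.card_bij (fun c _ => h • c)
  · intro c hc
    simp only [Finset.mem_filter, Finset.mem_univ, true_and] at hc ⊢
    exact (sep_smul h).mpr hc
  · intro c _ c' _ hcc
    exact MulAction.injective h hcc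
  · intro c hc
    simp only [Finset.mem_filter, Finset.mem_univ, true_and] at hc
    refine ⟨h⁻¹ • c, ?_, smul_inv_smul h c⟩
    simp only [Finset.mem_filter, Finset.mem_univ, true_and]
    rw [← sep_smul h, smul_inv_smul]
    exact hc

lemma dcard_triangle (a b e : Ω) : dcard G a e ≤ dcard G a b + dcard G b e := by
  classical
  unfold dcard
  refine le_trans (Finset.card_le_card ?_) (Finset.card_union_le _ _)
  intro c hc
  simp only [Finset.mem_filter, Finset.mem_univ, true_and, Finset.mem_union] at hc ⊢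
  exact sep_triangle hc

lemma dcard_self (a : Ω) : dcard G a a = 0 := by
  classical
  unfold dcard
  rw [Finset.card_eq_zero, Finset.filter_eq_empty_iff]
  intro c _
  exact not_sep_self a c

lemma dcard_pos {a b : Ω} (hab : a ≠ b) : 1 ≤ dcard G a b := by
  classical
  unfold dcard
  rw [Nat.succ_le_iff, Finset.card_pos]
  exact ⟨a, by simp only [Finset.mem_filter, Finset.mem_univ, true_and]; exact sep_self_left hab⟩

end Sep

section Graph

variable {G Ω : Type*} [Group G] [MulAction G Ω]

/-- A graph invariant under the group action. -/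
def GInv (G : Type*) {Ω : Type*} [Group G] [MulAction G Ω] (Γ : SimpleGraph Ω) : Prop :=
  ∀ (g : G) (u w : Ω), Γ.Adj u w → Γ.Adj (g • u) (g • w)

lemma GInv.adj_iff {Γ : SimpleGraph Ω} (hΓ : GInv G Γ) (g : G) (u w : Ω) :
    Γ.Adj (g • u) (g • w) ↔ Γ.Adj u w := by
  refine ⟨fun h => ?_, hΓ g u w⟩
  have := hΓ g⁻¹ _ _ h
  rwa [inv_smul_smul, inv_smul_smul] at this

/-- The graph homomorphism induced by a group element. -/
def GInv.hom {Γ : SimpleGraph Ω} (hΓ : GInv G Γ) (g : G) : Γ →g Γ where
  toFun := fun u => g • u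
  map_rel' := fun h => hΓ g _ _ h

lemma GInv.reachable {Γ : SimpleGraph Ω} (hΓ : GInv G Γ) (g : G) {u w : Ω}
    (h : Γ.Reachable u w) : Γ.Reachable (g • u) (g • w) := by
  obtain ⟨p⟩ := h
  exact ⟨p.map (hΓ.hom g)⟩

lemma GInv.dist_smul {Γ : SimpleGraph Ω} (hΓ : GInv G Γ) (hc : Γ.Connected) (g : G) (u w : Ω) :
    Γ.dist (g • u) (g • w) = Γ.dist u w := by
  apply le_antisymm
  · obtain ⟨p, hp⟩ := hc.exists_walk_length_eq_dist u w
    have := SimpleGraph.dist_le (p.map (hΓ.hom g))
    rw [SimpleGraph.Walk.length_map, hp] at this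
    exact this
  · obtain ⟨p, hp⟩ := hc.exists_walk_length_eq_dist (g • u) (g • w)
    have := SimpleGraph.dist_le (p.map (hΓ.hom g⁻¹))
    rw [SimpleGraph.Walk.length_map, hp] at this
    have e1 : (hΓ.hom g⁻¹) (g • u) = u := inv_smul_smul g u
    have e2 : (hΓ.hom g⁻¹) (g • w) = w := inv_smul_smul g w
    rw [e1, e2] at this
    exact this

lemma GInv.not_sep_dist {Γ : SimpleGraph Ω} (hΓ : GInv G Γ) (hc : Γ.Connected) {a b c : Ω}
    (h : ¬ Sep G a b c) : Γ.dist c a = Γ.dist c b := by
  unfold Sep at h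
  push Not at h
  obtain ⟨g, hgc, hab⟩ := h
  have := hΓ.dist_smul hc g c a
  rw [hgc, hab] at this
  exact this.symm

lemma GInv.not_sep_adj {Γ : SimpleGraph Ω} (hΓ : GInv G Γ) {a b c : Ω}
    (h : ¬ Sep G a b c) : Γ.Adj c a ↔ Γ.Adj c b := by
  unfold Sep at h
  push Not at h
  obtain ⟨g, hgc, hab⟩ := h
  have := hΓ.adj_iff g c a
  rw [hgc, hab] at this
  exact this.symm

/-- An invariant graph with an edge on a primitive `G`-set is connected. -/
lemma GInv.connected {Γ : SimpleGraph Ω} (hΓ : GInv G Γ) [IsPreprimitive G Ω] {u w : Ω}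
    (h : Γ.Adj u w) : Γ.Connected := by
  have hB : IsBlock G {c | Γ.Reachable u c} := by
    rw [isBlock_iff_smul_eq_of_mem]
    intro g a ha hga
    simp only [Set.mem_ofPred_eq] at ha hga
    have hgu : Γ.Reachable u (g • u) := hga.trans (hΓ.reachable g ha).symm
    ext c
    simp only [Set.mem_smul_set_iff_inv_smul_mem, Set.mem_ofPred_eq]
    constructor
    · intro hc
      have := hΓ.reachable g hc
      rw [smul_inv_smul] at this
      exact hgu.trans this
    · intro hc
      have := hΓ.reachable g⁻¹ (hgu.symm.trans hc)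
      rwa [inv_smul_smul] at this
  have htriv := IsPreprimitive.isTrivialBlock_of_isBlock hB
  have huniv : {c | Γ.Reachable u c} = Set.univ := by
    rcases htriv with hs | ht
    · exfalso
      have := hs (show u ∈ {c | Γ.Reachable u c} from SimpleGraph.Reachable.refl u)
        (show w ∈ {c | Γ.Reachable u c} from h.reachable)
      exact h.ne this
    · exact ht
  have hall : ∀ c, Γ.Reachable u c := by
    intro c
    have : c ∈ {c | Γ.Reachable u c} := by rw [huniv]; trivial
    exact this
  exact (SimpleGraph.connected_iff_exists_forall_reachable Γ).mpr ⟨u, hall⟩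

end Graph

section Count

variable {G Ω : Type*} [Group G] [MulAction G Ω] [Fintype Ω]

open scoped Classical in
/-- The valency of a vertex. -/
noncomputable def val (Γ : SimpleGraph Ω) (u : Ω) : ℕ :=
  (Finset.univ.filter (fun c => Γ.Adj u c)).card

lemma GInv.val_smul {Γ : SimpleGraph Ω} (hΓ : GInv G Γ) (g : G) (u : Ω) :
    val Γ (g • u) = val Γ u := by
  classical
  unfold val
  symm
  apply Finset.card_bij (fun c _ => g • c)
  · intro c hc
    simp only [Finset.mem_filter, Finset.mem_univ, true_and] at hc ⊢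
    exact hΓ g _ _ hc
  · intro c _ c' _ hcc
    exact MulAction.injective g hcc
  · intro c hc
    simp only [Finset.mem_filter, Finset.mem_univ, true_and] at hc
    refine ⟨g⁻¹ • c, ?_, smul_inv_smul g c⟩
    simp only [Finset.mem_filter, Finset.mem_univ, true_and]
    apply (hΓ.adj_iff g u (g⁻¹ • c)).mp
    rwa [smul_inv_smul]

lemma GInv.val_eq {Γ : SimpleGraph Ω} (hΓ : GInv G Γ) [IsPretransitive G Ω] (u w : Ω) :
    val Γ u = val Γ w := by
  obtain ⟨g, rfl⟩ := exists_smul_eq G u w
  exact (hΓ.val_smul g u).symm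

/-- The covering bound: if adjacent vertices are separated by at most `e` points, the graph has
at most `1 + v (e - 1)` vertices. -/
lemma GInv.covering {Γ : SimpleGraph Ω} (hΓ : GInv G Γ) (hc : Γ.Connected) (e : ℕ)
    (he : ∀ u w, Γ.Adj u w → dcard G u w ≤ e) (u : Ω) :
    Fintype.card Ω ≤ 1 + val Γ u * (e - 1) := by
  classical
  have hW : ∀ w, Γ.Adj u w →
      (Finset.univ.filter (fun c => Γ.dist c w < Γ.dist c u)).card ≤ e - 1 := by
    intro w huw
    have hsub : (Finset.univ.filter (fun c => Γ.dist c w < Γ.dist c u)) ⊆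
        (Finset.univ.filter (fun c => Sep G u w c)).erase u := by
      intro c hcW
      simp only [Finset.mem_filter, Finset.mem_univ, true_and, Finset.mem_erase] at hcW ⊢
      refine ⟨?_, ?_⟩
      · rintro rfl
        rw [SimpleGraph.dist_self] at hcW
        exact Nat.not_lt_zero _ hcW
      · by_contra hns
        have := hΓ.not_sep_dist hc hns
        omega
    have h1 := Finset.card_le_card hsub
    rw [Finset.card_erase_of_mem (by
      simp only [Finset.mem_filter, Finset.mem_univ, true_and]
      exact sep_self_left huw.ne)] at h1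
    have h2 := he u w huw
    unfold dcard at h2
    omega
  have hcov : (Finset.univ : Finset Ω) ⊆ insert u ((Finset.univ.filter (fun w => Γ.Adj u w)).biUnion
      (fun w => Finset.univ.filter (fun c => Γ.dist c w < Γ.dist c u))) := by
    intro c _
    by_cases hcu : c = u
    · rw [hcu]; exact Finset.mem_insert_self _ _
    · apply Finset.mem_insert_of_mem
      rw [Finset.mem_biUnion]
      obtain ⟨p, hp⟩ := hc.exists_walk_length_eq_dist u c
      cases p with
      | nil => exact absurd rfl hcu
      | cons h p' =>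
        rename_i w
        refine ⟨w, by simp only [Finset.mem_filter, Finset.mem_univ, true_and]; exact h, ?_⟩
        simp only [Finset.mem_filter, Finset.mem_univ, true_and]
        have := SimpleGraph.dist_le p'
        rw [SimpleGraph.Walk.length_cons] at hp
        rw [SimpleGraph.dist_comm (u := c) (v := w), SimpleGraph.dist_comm (u := c) (v := u)]
        omega
  have h1 := Finset.card_le_card hcov
  rw [Finset.card_univ] at h1
  have h2 := Finset.card_insert_le u ((Finset.univ.filter (fun w => Γ.Adj u w)).biUnion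
      (fun w => Finset.univ.filter (fun c => Γ.dist c w < Γ.dist c u)))
  have h3 := Finset.card_biUnion_le (s := Finset.univ.filter (fun w => Γ.Adj u w))
      (t := fun w => Finset.univ.filter (fun c => Γ.dist c w < Γ.dist c u))
  have h4 := Finset.sum_le_card_nsmul (Finset.univ.filter (fun w => Γ.Adj u w))
      (fun w => (Finset.univ.filter (fun c => Γ.dist c w < Γ.dist c u)).card) (e - 1)
      (fun w hw => hW w (by simpa using hw))
  rw [smul_eq_mul] at h4
  unfold val
  omega

/-- The double counting bound: if any two vertices are separated by at most `2 f` points, then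
`(n - 1) (v - f) ≤ v (v - 1)`. -/
lemma GInv.counting {Γ : SimpleGraph Ω} (hΓ : GInv G Γ) [IsPretransitive G Ω] (f : ℕ)
    (hf : ∀ u c : Ω, dcard G u c ≤ 2 * f) (u : Ω) :
    (Fintype.card Ω - 1) * (val Γ u - f) ≤ val Γ u * (val Γ u - 1) := by
  classical
  have hN : ∀ c, (Finset.univ.filter (fun w => Γ.Adj c w)).card = val Γ u := fun c => hΓ.val_eq c u
  have hlow : ∀ c, val Γ u - f ≤
      ((Finset.univ.filter (fun w => Γ.Adj u w)).filter (fun w => Γ.Adj c w)).card := by
    intro c
    have hAB : ((Finset.univ.filter (fun w => Γ.Adj u w)) \ (Finset.univ.filter (fun w => Γ.Adj c w))) ∪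
        ((Finset.univ.filter (fun w => Γ.Adj c w)) \ (Finset.univ.filter (fun w => Γ.Adj u w))) ⊆
        Finset.univ.filter (fun w => Sep G u c w) := by
      intro w hw
      simp only [Finset.mem_union, Finset.mem_sdiff, Finset.mem_filter, Finset.mem_univ,
        true_and] at hw ⊢
      by_contra hns
      have := hΓ.not_sep_adj (c := w) hns
      rcases hw with ⟨h1, h2⟩ | ⟨h1, h2⟩
      · exact h2 (this.mp h1.symm).symm
      · exact h2 (this.mpr h1.symm).symm
    have hdisj : Disjoint
        ((Finset.univ.filter (fun w => Γ.Adj u w)) \ (Finset.univ.filter (fun w => Γ.Adj c w)))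
        ((Finset.univ.filter (fun w => Γ.Adj c w)) \ (Finset.univ.filter (fun w => Γ.Adj u w))) := by
      rw [Finset.disjoint_left]
      intro w h1 h2
      simp only [Finset.mem_sdiff, Finset.mem_filter, Finset.mem_univ, true_and] at h1 h2
      exact h1.2 h2.1
    have h1 := Finset.card_le_card hAB
    rw [Finset.card_union_of_disjoint hdisj] at h1
    have h2 := hf u c
    unfold dcard at h2
    have h3 := Finset.card_sdiff_add_card_inter (Finset.univ.filter (fun w => Γ.Adj u w))
      (Finset.univ.filter (fun w => Γ.Adj c w))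
    have h4 := Finset.card_sdiff_add_card_inter (Finset.univ.filter (fun w => Γ.Adj c w))
      (Finset.univ.filter (fun w => Γ.Adj u w))
    rw [Finset.inter_comm] at h4
    rw [hN] at h3 h4
    have h5 : (Finset.univ.filter (fun w => Γ.Adj u w)) ∩ (Finset.univ.filter (fun w => Γ.Adj c w)) =
        (Finset.univ.filter (fun w => Γ.Adj u w)).filter (fun w => Γ.Adj c w) := by
      ext w
      simp only [Finset.mem_inter, Finset.mem_filter, Finset.mem_univ, true_and]
    rw [h5] at h3 h4
    omega
  have hsum : ∑ c ∈ (Finset.univ : Finset Ω).erase u,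
      ((Finset.univ.filter (fun w => Γ.Adj u w)).filter (fun w => Γ.Adj c w)).card =
      val Γ u * (val Γ u - 1) := by
    have e1 : ∀ c, ((Finset.univ.filter (fun w => Γ.Adj u w)).filter (fun w => Γ.Adj c w)).card =
        ∑ w ∈ Finset.univ.filter (fun w => Γ.Adj u w), if Γ.Adj c w then 1 else 0 := by
      intro c
      rw [Finset.card_filter]
    simp only [e1]
    rw [Finset.sum_comm]
    have e2 : ∀ w ∈ Finset.univ.filter (fun w => Γ.Adj u w),
        (∑ c ∈ (Finset.univ : Finset Ω).erase u, if Γ.Adj c w then 1 else 0) = val Γ u - 1 := by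
      intro w hw
      simp only [Finset.mem_filter, Finset.mem_univ, true_and] at hw
      rw [← Finset.card_filter]
      have e3 : ((Finset.univ : Finset Ω).erase u).filter (fun c => Γ.Adj c w) =
          (Finset.univ.filter (fun c => Γ.Adj w c)).erase u := by
        ext c
        simp only [Finset.mem_filter, Finset.mem_erase, Finset.mem_univ, true_and, and_true]
        constructor
        · rintro ⟨h1, h2⟩
          exact ⟨h1, h2.symm⟩
        · rintro ⟨h1, h2⟩
          exact ⟨h1, h2.symm⟩
      rw [e3, Finset.card_erase_of_mem (by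
        simp only [Finset.mem_filter, Finset.mem_univ, true_and]; exact hw.symm), hN]
    rw [Finset.sum_congr rfl e2, Finset.sum_const, smul_eq_mul]
    rfl
  have h1 := Finset.card_nsmul_le_sum ((Finset.univ : Finset Ω).erase u)
    (fun c => ((Finset.univ.filter (fun w => Γ.Adj u w)).filter (fun w => Γ.Adj c w)).card)
    (val Γ u - f) (fun c _ => hlow c)
  rw [hsum, Finset.card_erase_of_mem (Finset.mem_univ u), Finset.card_univ, smul_eq_mul] at h1
  exact h1

/-- If adjacent vertices are separated by at most `d` points and the valency is at least `2 d`,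
any two vertices are separated by at most `2 d` points (the diameter is at most two). -/
lemma GInv.dcard_le_two {Γ : SimpleGraph Ω} (hΓ : GInv G Γ) (hc : Γ.Connected)
    [IsPretransitive G Ω] (d : ℕ) (hd : 1 ≤ d)
    (hadj : ∀ u w, Γ.Adj u w → dcard G u w ≤ d) (u₀ : Ω) (hv : 2 * d ≤ val Γ u₀) :
    ∀ u c : Ω, dcard G u c ≤ 2 * d := by
  classical
  have key : ∀ u c, u = c ∨ Γ.Adj u c ∨ ∃ w, Γ.Adj u w ∧ Γ.Adj w c := by
    intro u c
    have hr := (SimpleGraph.reachable_iff_reflTransGen u c).mp (hc.preconnected u c)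
    induction hr with
    | refl => left; rfl
    | @tail b c' _ hcc ih =>
      rcases ih with rfl | hub | ⟨w, huw, hwb⟩
      · right; left; exact hcc
      · right; right; exact ⟨b, hub, hcc⟩
      · by_contra hcon
        push Not at hcon
        obtain ⟨hne, hnadj, hnc⟩ := hcon
        have h3 : dcard G u c' ≤ 3 * d := by
          have t1 := dcard_triangle (G := G) u w c'
          have t2 := dcard_triangle (G := G) w b c'
          have t3 := hadj u w huw
          have t4 := hadj w b hwb
          have t5 := hadj b c' hcc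
          omega
        have hAB : (Finset.univ.filter (fun x => Γ.Adj u x)) ∪ (Finset.univ.filter (fun x => Γ.Adj c' x)) ⊆
            Finset.univ.filter (fun x => Sep G u c' x) := by
          intro x hx
          simp only [Finset.mem_union, Finset.mem_filter, Finset.mem_univ, true_and] at hx ⊢
          by_contra hns
          have := hΓ.not_sep_adj (c := x) hns
          rcases hx with h | h
          · exact hnc x h (this.mp h.symm)
          · exact hnc x (this.mpr h.symm).symm h.symm
        have hdisj : Disjoint (Finset.univ.filter (fun x => Γ.Adj u x))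
            (Finset.univ.filter (fun x => Γ.Adj c' x)) := by
          rw [Finset.disjoint_left]
          intro x h1 h2
          simp only [Finset.mem_filter, Finset.mem_univ, true_and] at h1 h2
          exact hnc x h1 h2.symm
        have h1 := Finset.card_le_card hAB
        rw [Finset.card_union_of_disjoint hdisj] at h1
        have e1 : (Finset.univ.filter (fun x => Γ.Adj u x)).card = val Γ u₀ := hΓ.val_eq u u₀
        have e2 : (Finset.univ.filter (fun x => Γ.Adj c' x)).card = val Γ u₀ := hΓ.val_eq c' u₀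
        rw [e1, e2] at h1
        unfold dcard at h3
        omega
  intro u c
  rcases key u c with rfl | h | ⟨w, h1, h2⟩
  · rw [dcard_self (G := G)]; omega
  · have := hadj u c h; omega
  · have t1 := dcard_triangle (G := G) u w c
    have t2 := hadj u w h1
    have t3 := hadj w c h2
    omega

end Count

section CaseB

variable {G Ω : Type*} [Group G] [MulAction G Ω]

/-- The graph whose edges are the images of the pair `{a, b}`. -/
def pairGraph (G : Type*) {Ω : Type*} [Group G] [MulAction G Ω] (a b : Ω) : SimpleGraph Ω where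
  Adj u w := u ≠ w ∧ ∃ g : G, (g • a = u ∧ g • b = w) ∨ (g • a = w ∧ g • b = u)
  symm := ⟨fun u w h => ⟨h.1.symm, by
    obtain ⟨g, hg⟩ := h.2
    exact ⟨g, hg.symm⟩⟩⟩
  loopless := ⟨fun u h => h.1 rfl⟩

lemma pairGraph_adj {a b u w : Ω} : (pairGraph G a b).Adj u w ↔
    u ≠ w ∧ ∃ g : G, (g • a = u ∧ g • b = w) ∨ (g • a = w ∧ g • b = u) := Iff.rfl

lemma pairGraph_inv (a b : Ω) : GInv G (pairGraph G a b) := by
  rintro g u w ⟨hne, h, hh⟩
  refine ⟨(MulAction.injective g).ne hne, g * h, ?_⟩
  rcases hh with ⟨h1, h2⟩ | ⟨h1, h2⟩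
  · left; rw [mul_smul, mul_smul, h1, h2]; exact ⟨rfl, rfl⟩
  · right; rw [mul_smul, mul_smul, h1, h2]; exact ⟨rfl, rfl⟩

lemma val_add_val_compl [Fintype Ω] (Γ : SimpleGraph Ω) (a : Ω) :
    val Γ a + val Γᶜ a = Fintype.card Ω - 1 := by
  classical
  unfold val
  rw [← Finset.card_union_of_disjoint, ← Finset.card_univ,
    ← Finset.card_erase_of_mem (Finset.mem_univ a)]
  · congr 1
    ext c
    simp only [Finset.mem_union, Finset.mem_filter, Finset.mem_univ, true_and,
      SimpleGraph.compl_adj, Finset.mem_erase, and_true]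
    constructor
    · rintro (h | h)
      · exact h.ne.symm
      · exact h.1.symm
    · intro h
      by_cases hadj' : Γ.Adj a c
      · exact Or.inl hadj'
      · exact Or.inr ⟨fun h' => h h'.symm, hadj'⟩
  · rw [Finset.disjoint_left]
    intro c h1 h2
    simp only [Finset.mem_filter, Finset.mem_univ, true_and, SimpleGraph.compl_adj] at h1 h2
    exact h2.2 h1

variable [Fintype Ω]

lemma pairGraph_dcard {a b u w : Ω} (h : (pairGraph G a b).Adj u w) :
    dcard G u w = dcard G a b := by
  obtain ⟨-, g, ⟨rfl, rfl⟩ | ⟨rfl, rfl⟩⟩ := h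
  · exact dcard_smul g a b
  · rw [dcard_symm, dcard_smul g a b]

lemma dcard_le_supp (x : G) (a : Ω) (S : Finset Ω) (hS : ∀ c, x • c ≠ c → c ∈ S) :
    dcard G a (x • a) ≤ S.card := by
  classical
  unfold dcard
  apply Finset.card_le_card
  intro c hc
  simp only [Finset.mem_filter, Finset.mem_univ, true_and] at hc
  apply hS
  intro hfix
  exact not_sep_of_fixed a hfix hc

/-- The bound when the graph of the pair `{a, b}` is not complete. -/
theorem card_le_of_not_complete [IsPreprimitive G Ω] (a b : Ω) (hab : a ≠ b)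
    (hnc : ∃ u w : Ω, u ≠ w ∧ ¬ (pairGraph G a b).Adj u w) :
    Fintype.card Ω ≤ (2 * dcard G a b) ^ 2 := by
  classical
  have : IsPretransitive G Ω := IsPreprimitive.toIsPretransitive
  have hΓ : GInv G (pairGraph G a b) := pairGraph_inv a b
  have hadj0 : (pairGraph G a b).Adj a b := ⟨hab, 1, Or.inl ⟨one_smul _ _, one_smul _ _⟩⟩
  have hc := hΓ.connected hadj0
  have hd : 1 ≤ dcard G a b := dcard_pos hab
  have hadj : ∀ u w, (pairGraph G a b).Adj u w → dcard G u w ≤ dcard G a b :=
    fun u w h => (pairGraph_dcard h).le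
  have cov := hΓ.covering hc (dcard G a b) hadj a
  obtain ⟨d, hdd⟩ : ∃ d, dcard G a b = d + 1 := ⟨dcard G a b - 1, by omega⟩
  obtain ⟨v, hv⟩ : ∃ v, val (pairGraph G a b) a = v := ⟨_, rfl⟩
  rw [hdd] at hadj cov ⊢
  rw [hv, Nat.add_sub_cancel] at cov
  by_cases hlt : v < 2 * (d + 1)
  · have h1 : v * d ≤ (2 * d + 1) * d := Nat.mul_le_mul_right _ (by omega)
    have h2 : 1 + (2 * d + 1) * d ≤ (2 * (d + 1)) ^ 2 := by nlinarith
    omega
  · push Not at hlt
    have h2 := hΓ.dcard_le_two hc (d + 1) (by omega) hadj a (by rw [hv]; exact hlt)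
    have cnt := hΓ.counting (d + 1) h2 a
    rw [hv] at cnt
    have hvpos : 0 < v := by omega
    have hn1 : Fintype.card Ω - 1 ≤ 2 * (v - 1) := by
      have h3 : (Fintype.card Ω - 1) * v ≤ (2 * (v - 1)) * v := by
        calc (Fintype.card Ω - 1) * v ≤ (Fintype.card Ω - 1) * (2 * (v - (d + 1))) :=
              Nat.mul_le_mul_left _ (by omega)
          _ = 2 * ((Fintype.card Ω - 1) * (v - (d + 1))) := by ring
          _ ≤ 2 * (v * (v - 1)) := Nat.mul_le_mul_left _ cnt
          _ = (2 * (v - 1)) * v := by ring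
      exact Nat.le_of_mul_le_mul_right h3 hvpos
    obtain ⟨u₁, w₁, hne₁, hnadj₁⟩ := hnc
    have hΓ' : GInv G (pairGraph G a b)ᶜ := by
      intro g u w h
      rw [SimpleGraph.compl_adj] at h ⊢
      exact ⟨(MulAction.injective g).ne h.1, fun h' => h.2 ((hΓ.adj_iff g u w).mp h')⟩
    have hadj1 : (pairGraph G a b)ᶜ.Adj u₁ w₁ := by
      rw [SimpleGraph.compl_adj]; exact ⟨hne₁, hnadj₁⟩
    have hc' := hΓ'.connected hadj1
    have cov' := hΓ'.covering hc' (2 * (d + 1)) (fun u w _ => h2 u w) a
    have cnt' := hΓ'.counting (d + 1) h2 a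
    obtain ⟨v', hv'⟩ : ∃ v', val (pairGraph G a b)ᶜ a = v' := ⟨_, rfl⟩
    rw [hv'] at cov' cnt'
    have hvv : v + v' = Fintype.card Ω - 1 := by
      rw [← hv, ← hv']
      exact val_add_val_compl _ a
    by_cases hlt' : v' < 2 * (d + 1)
    · have h1 : v' * (2 * (d + 1) - 1) ≤ (2 * d + 1) * (2 * (d + 1) - 1) :=
        Nat.mul_le_mul_right _ (by omega)
      have e1 : 2 * (d + 1) - 1 = 2 * d + 1 := by omega
      rw [e1] at h1 cov'
      have h3 : 1 + (2 * d + 1) * (2 * d + 1) ≤ (2 * (d + 1)) ^ 2 := by nlinarith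
      omega
    · exfalso
      push Not at hlt'
      have hv'pos : 0 < v' := by omega
      have hn2 : Fintype.card Ω - 1 ≤ 2 * (v' - 1) := by
        have h3 : (Fintype.card Ω - 1) * v' ≤ (2 * (v' - 1)) * v' := by
          calc (Fintype.card Ω - 1) * v' ≤ (Fintype.card Ω - 1) * (2 * (v' - (d + 1))) :=
                Nat.mul_le_mul_left _ (by omega)
            _ = 2 * ((Fintype.card Ω - 1) * (v' - (d + 1))) := by ring
            _ ≤ 2 * (v' * (v' - 1)) := Nat.mul_le_mul_left _ cnt'
            _ = (2 * (v' - 1)) * v' := by ring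
        exact Nat.le_of_mul_le_mul_right h3 hv'pos
      omega

end CaseB

section CaseA

variable {G Ω : Type*} [Group G] [Fintype G] [MulAction G Ω] [Fintype Ω]

/-- The fibres of `y ↦ y • p` over two points of one orbit have the same size. -/
lemma card_fiber_smul {X : Type*} [MulAction G X] [DecidableEq X] (p q : X) (h : G) :
    (Finset.univ.filter (fun y : G => y • p = h • q)).card =
      (Finset.univ.filter (fun y : G => y • p = q)).card := by
  symm
  apply Finset.card_bij (fun y _ => h * y)
  · intro y hy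
    simp only [Finset.mem_filter, Finset.mem_univ, true_and] at hy ⊢
    rw [mul_smul, hy]
  · intro y _ y' _ e
    exact mul_left_cancel e
  · intro y hy
    simp only [Finset.mem_filter, Finset.mem_univ, true_and] at hy
    refine ⟨h⁻¹ * y, ?_, by group⟩
    simp only [Finset.mem_filter, Finset.mem_univ, true_and]
    rw [mul_smul, hy, inv_smul_smul]

/-- Counting the group elements that map a point into a set. -/
lemma card_smul_mem [IsPretransitive G Ω] [DecidableEq Ω] (s : Ω) (S : Finset Ω) :
    Fintype.card Ω * (Finset.univ.filter (fun y : G => y • s ∈ S)).card =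
      S.card * Fintype.card G := by
  have hfib : ∀ ω : Ω, (Finset.univ.filter (fun y : G => y • s = ω)).card =
      (Finset.univ.filter (fun y : G => y • s = s)).card := by
    intro ω
    obtain ⟨h, rfl⟩ := exists_smul_eq G s ω
    exact card_fiber_smul s s h
  have h1 : (Finset.univ.filter (fun y : G => y • s ∈ S)).card =
      ∑ ω ∈ S, (Finset.univ.filter (fun y : G => y • s = ω)).card := by
    rw [Finset.card_eq_sum_card_fiberwise (f := fun y : G => y • s) (t := S)]
    · apply Finset.sum_congr rfl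
      intro ω hω
      congr 1
      ext y
      simp only [Finset.mem_filter, Finset.mem_univ, true_and, and_iff_right_iff_imp]
      intro h
      rw [h]; exact hω
    · intro y hy
      simpa using hy
  have h2 : Fintype.card G =
      ∑ ω ∈ (Finset.univ : Finset Ω), (Finset.univ.filter (fun y : G => y • s = ω)).card := by
    rw [← Finset.card_univ (α := G),
      Finset.card_eq_sum_card_fiberwise (f := fun y : G => y • s) (t := Finset.univ)]
    intro y _
    exact Finset.mem_univ _
  rw [h1, h2]
  simp only [hfib, Finset.sum_const, smul_eq_mul, Finset.card_univ]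
  ring

/-- Counting the group elements that map a pair of distinct points into a set, for a group
transitive on unordered pairs. -/
lemma card_smul_pair_mem [DecidableEq Ω]
    (h2 : ∀ u w : Ω, u ≠ w → ∀ u' w' : Ω, u' ≠ w' →
      ∃ g : G, (g • u = u' ∧ g • w = w') ∨ (g • u = w' ∧ g • w = u'))
    (s s' : Ω) (hss : s ≠ s') (S : Finset Ω) :
    (Fintype.card Ω * Fintype.card Ω - Fintype.card Ω) *
      (Finset.univ.filter (fun y : G => y • s ∈ S ∧ y • s' ∈ S)).card =
      (S.card * S.card - S.card) * Fintype.card G := by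
  obtain ⟨C, hC⟩ : ∃ C : Ω × Ω → ℕ, C = fun q =>
      (Finset.univ.filter (fun y : G => y • ((s, s') : Ω × Ω) = q)).card := ⟨_, rfl⟩
  have hCsmul : ∀ (h : G) (q : Ω × Ω), C (h • q) = C q := by
    intro h q
    rw [hC]
    exact card_fiber_smul (s, s') q h
  have hE : ∀ q q' : Ω × Ω, q.1 ≠ q.2 → q'.1 ≠ q'.2 →
      C q' + C q'.swap = C q + C q.swap := by
    rintro ⟨u, w⟩ ⟨u', w'⟩ hq hq'
    obtain ⟨h, ⟨h1, h2'⟩ | ⟨h1, h2'⟩⟩ := h2 u w hq u' w' hq'
    · have e1 : ((u', w') : Ω × Ω) = h • ((u, w) : Ω × Ω) := by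
        rw [Prod.smul_mk, h1, h2']
      have e2 : ((w', u') : Ω × Ω) = h • ((w, u) : Ω × Ω) := by
        rw [Prod.smul_mk, h1, h2']
      simp only [Prod.swap_prod_mk]
      rw [e1, e2, hCsmul, hCsmul]
    · have e1 : ((u', w') : Ω × Ω) = h • ((w, u) : Ω × Ω) := by
        rw [Prod.smul_mk, h1, h2']
      have e2 : ((w', u') : Ω × Ω) = h • ((u, w) : Ω × Ω) := by
        rw [Prod.smul_mk, h1, h2']
      simp only [Prod.swap_prod_mk]
      rw [e1, e2, hCsmul, hCsmul, add_comm]
  have hswap : ∀ T : Finset Ω, ∑ q ∈ T.offDiag, C q.swap = ∑ q ∈ T.offDiag, C q := by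
    intro T
    refine Finset.sum_bij' (fun q _ => q.swap) (fun q _ => q.swap) ?_ ?_ ?_ ?_ ?_
    · intro q hq
      rw [Finset.mem_offDiag] at hq ⊢
      exact ⟨hq.2.1, hq.1, hq.2.2.symm⟩
    · intro q hq
      rw [Finset.mem_offDiag] at hq ⊢
      exact ⟨hq.2.1, hq.1, hq.2.2.symm⟩
    · intro q _; exact Prod.swap_swap q
    · intro q _; exact Prod.swap_swap q
    · intro q _; rfl
  have hfibT : ∀ T : Finset Ω, (Finset.univ.filter (fun y : G => y • s ∈ T ∧ y • s' ∈ T)).card =
      ∑ q ∈ T.offDiag, C q := by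
    intro T
    rw [hC, Finset.card_eq_sum_card_fiberwise (f := fun y : G => y • ((s, s') : Ω × Ω))
      (t := T.offDiag)]
    · apply Finset.sum_congr rfl
      intro q hq
      congr 1
      ext y
      simp only [Finset.mem_filter, Finset.mem_univ, true_and, and_iff_right_iff_imp]
      intro h
      rw [Finset.mem_offDiag] at hq
      rw [Prod.smul_mk] at h
      rw [← h] at hq
      exact ⟨hq.1, hq.2.1⟩
    · intro y hy
      have hy' : y • s ∈ T ∧ y • s' ∈ T := by simpa using hy
      show y • ((s, s') : Ω × Ω) ∈ ((T.offDiag : Finset (Ω × Ω)) : Set (Ω × Ω))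
      rw [Finset.mem_coe, Finset.mem_offDiag, Prod.smul_mk]
      exact ⟨hy'.1, hy'.2, (MulAction.injective y).ne hss⟩
  have hGsum : Fintype.card G = ∑ q ∈ (Finset.univ : Finset Ω).offDiag, C q := by
    rw [← hfibT Finset.univ, ← Finset.card_univ (α := G)]
    congr 1
    ext y
    simp
  obtain ⟨b, hb⟩ : ∃ b, b = C (s, s') + C ((s, s') : Ω × Ω).swap := ⟨_, rfl⟩
  have hconst : ∀ T : Finset Ω, ∑ q ∈ T.offDiag, (C q + C q.swap) =
      (T.card * T.card - T.card) * b := by
    intro T
    rw [Finset.sum_congr rfl (fun q hq => hE (s, s') q hss (Finset.mem_offDiag.mp hq).2.2),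
      Finset.sum_const, smul_eq_mul, Finset.offDiag_card, hb]
  have h2G : 2 * Fintype.card G = (Fintype.card Ω * Fintype.card Ω - Fintype.card Ω) * b := by
    have := hconst Finset.univ
    rw [Finset.sum_add_distrib, hswap, ← hGsum, Finset.card_univ] at this
    omega
  have h2B : 2 * (Finset.univ.filter (fun y : G => y • s ∈ S ∧ y • s' ∈ S)).card =
      (S.card * S.card - S.card) * b := by
    have := hconst S
    rw [Finset.sum_add_distrib, hswap, ← hfibT S] at this
    omega
  have key : 2 * ((Fintype.card Ω * Fintype.card Ω - Fintype.card Ω) *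
      (Finset.univ.filter (fun y : G => y • s ∈ S ∧ y • s' ∈ S)).card) =
      2 * ((S.card * S.card - S.card) * Fintype.card G) := by
    calc 2 * ((Fintype.card Ω * Fintype.card Ω - Fintype.card Ω) *
          (Finset.univ.filter (fun y : G => y • s ∈ S ∧ y • s' ∈ S)).card)
        = (Fintype.card Ω * Fintype.card Ω - Fintype.card Ω) *
          (2 * (Finset.univ.filter (fun y : G => y • s ∈ S ∧ y • s' ∈ S)).card) := by ring
      _ = (Fintype.card Ω * Fintype.card Ω - Fintype.card Ω) * ((S.card * S.card - S.card) * b) := by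
          rw [h2B]
      _ = (S.card * S.card - S.card) * ((Fintype.card Ω * Fintype.card Ω - Fintype.card Ω) * b) := by
          ring
      _ = (S.card * S.card - S.card) * (2 * Fintype.card G) := by rw [h2G]
      _ = 2 * ((S.card * S.card - S.card) * Fintype.card G) := by ring
  exact Nat.eq_of_mul_eq_mul_left (by norm_num) key

end CaseA

section Final

/-- In a group transitive on unordered pairs, a small set has a translate meeting it in exactly
one point. -/
theorem exists_inter_one {G Ω : Type*} [Group G] [Fintype G] [MulAction G Ω] [Fintype Ω]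
    [DecidableEq Ω] [IsPretransitive G Ω]
    (h2 : ∀ u w : Ω, u ≠ w → ∀ u' w' : Ω, u' ≠ w' →
      ∃ g : G, (g • u = u' ∧ g • w = w') ∨ (g • u = w' ∧ g • w = u'))
    (S : Finset Ω) (hS : S.Nonempty) (hlt : (S.card - 1) ^ 2 + 1 < Fintype.card Ω) :
    ∃ y : G, (S.filter (fun s => y • s ∈ S)).card = 1 := by
  by_contra hno
  push Not at hno
  obtain ⟨k, hk⟩ : ∃ k : G → ℕ, k = fun y => (S.filter (fun s => y • s ∈ S)).card := ⟨_, rfl⟩
  have hk1 : ∀ y, k y ≤ k y * k y - k y := by
    intro y
    have h1 : k y ≠ 1 := by rw [hk]; exact hno y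
    rcases Nat.lt_or_ge (k y) 2 with h | h
    · have : k y = 0 := by omega
      rw [this]
    · have : k y * 2 ≤ k y * k y := Nat.mul_le_mul_left _ h
      omega
  have hT : ∑ y : G, k y ≤ ∑ y : G, (k y * k y - k y) := Finset.sum_le_sum (fun y _ => hk1 y)
  have hT1 : Fintype.card Ω * ∑ y : G, k y = S.card * (S.card * Fintype.card G) := by
    have e1 : ∑ y : G, k y = ∑ s ∈ S, (Finset.univ.filter (fun y : G => y • s ∈ S)).card := by
      rw [hk]
      simp only [Finset.card_filter]
      rw [Finset.sum_comm]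
    rw [e1, Finset.mul_sum, Finset.sum_congr rfl (fun s _ => card_smul_mem s S), Finset.sum_const,
      smul_eq_mul]
  have hT2 : (Fintype.card Ω * Fintype.card Ω - Fintype.card Ω) * ∑ y : G, (k y * k y - k y) =
      (S.card * S.card - S.card) * ((S.card * S.card - S.card) * Fintype.card G) := by
    have e1 : ∀ y : G, k y * k y - k y =
        (S.offDiag.filter (fun p : Ω × Ω => y • p.1 ∈ S ∧ y • p.2 ∈ S)).card := by
      intro y
      rw [hk, ← Finset.offDiag_card]
      congr 1
      ext p
      simp only [Finset.mem_offDiag, Finset.mem_filter]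
      tauto
    have e2 : ∑ y : G, (k y * k y - k y) = ∑ p ∈ S.offDiag,
        (Finset.univ.filter (fun y : G => y • p.1 ∈ S ∧ y • p.2 ∈ S)).card := by
      simp only [e1, Finset.card_filter]
      rw [Finset.sum_comm]
    rw [e2, Finset.mul_sum, Finset.sum_congr rfl (fun p hp =>
      card_smul_pair_mem h2 p.1 p.2 (Finset.mem_offDiag.mp hp).2.2 S), Finset.sum_const,
      smul_eq_mul, Finset.offDiag_card]
  have hg : 0 < Fintype.card G := Fintype.card_pos
  obtain ⟨M, hM⟩ : ∃ M, S.card = M + 1 := ⟨S.card - 1, by have := Finset.card_pos.mpr hS; omega⟩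
  obtain ⟨N, hN⟩ : ∃ N, Fintype.card Ω = N + 1 := ⟨Fintype.card Ω - 1, by omega⟩
  rw [hM, hN] at hT1 hT2
  rw [hM, hN, Nat.add_sub_cancel] at hlt
  have eN : (N + 1) * (N + 1) - (N + 1) = (N + 1) * N := by
    rw [Nat.mul_succ, Nat.add_sub_cancel]
  have eM : (M + 1) * (M + 1) - (M + 1) = (M + 1) * M := by
    rw [Nat.mul_succ, Nat.add_sub_cancel]
  rw [eN, eM] at hT2
  have h3 : ((N + 1) * N) * ((N + 1) * ∑ y : G, k y) ≤
      (N + 1) * (((N + 1) * N) * ∑ y : G, (k y * k y - k y)) := by
    calc ((N + 1) * N) * ((N + 1) * ∑ y : G, k y)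
        = (N + 1) * (((N + 1) * N) * ∑ y : G, k y) := by ring
      _ ≤ (N + 1) * (((N + 1) * N) * ∑ y : G, (k y * k y - k y)) :=
          Nat.mul_le_mul_left _ (Nat.mul_le_mul_left _ hT)
  rw [hT1, hT2] at h3
  have h4 : ((N + 1) * (M + 1) * (M + 1) * Fintype.card G) * N ≤
      ((N + 1) * (M + 1) * (M + 1) * Fintype.card G) * (M * M) := by
    calc ((N + 1) * (M + 1) * (M + 1) * Fintype.card G) * N
        = (N + 1) * N * ((M + 1) * ((M + 1) * Fintype.card G)) := by ring
      _ ≤ (N + 1) * ((M + 1) * M * ((M + 1) * M * Fintype.card G)) := h3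
      _ = ((N + 1) * (M + 1) * (M + 1) * Fintype.card G) * (M * M) := by ring
  have h5 : N ≤ M * M := Nat.le_of_mul_le_mul_left h4 (by positivity)
  have h6 : M ^ 2 = M * M := by ring
  omega

/-- Two permutations whose supports meet in exactly one point have a commutator that is a
three-cycle. -/
lemma threeCycle_of_inter {G Ω : Type*} [Group G] [MulAction G Ω] [DecidableEq Ω] [Fintype Ω]
    (x h : G) (ω₀ : Ω) (hx : x • ω₀ ≠ ω₀) (hh : h • ω₀ ≠ ω₀)
    (huniq : ∀ ω : Ω, x • ω ≠ ω → h • ω ≠ ω → ω = ω₀) :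
    (MulAction.toPerm (x⁻¹ * h⁻¹ * x * h) : Equiv.Perm Ω).IsThreeCycle := by
  have hxi : ∀ ω : Ω, x • ω = ω → x⁻¹ • ω = ω := fun ω e => by rw [inv_smul_eq_iff, e]
  have hhi : ∀ ω : Ω, h • ω = ω → h⁻¹ • ω = ω := fun ω e => by rw [inv_smul_eq_iff, e]
  obtain ⟨p, hp⟩ : ∃ p : Ω, p = h⁻¹ • ω₀ := ⟨_, rfl⟩
  obtain ⟨r, hr⟩ : ∃ r : Ω, r = x⁻¹ • ω₀ := ⟨_, rfl⟩
  have hhp : h • p = ω₀ := by rw [hp, smul_inv_smul]
  have hxr : x • r = ω₀ := by rw [hr, smul_inv_smul]
  have hpq : p ≠ ω₀ := by intro e; rw [e] at hhp; exact hh hhp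
  have hrq : r ≠ ω₀ := by intro e; rw [e] at hxr; exact hx hxr
  have hpmoved : h • p ≠ p := by rw [hhp]; exact hpq.symm
  have hrmoved : x • r ≠ r := by rw [hxr]; exact hrq.symm
  have hxp : x • p = p := by by_contra e; exact hpq (huniq p e hpmoved)
  have hhr : h • r = r := by by_contra e; exact hrq (huniq r hrmoved e)
  have hpr : p ≠ r := by intro e; rw [e] at hxp; exact hrmoved hxp
  have hxq_h : h • (x • ω₀) = x • ω₀ := by
    by_contra e
    have : x • (x • ω₀) ≠ x • ω₀ := fun e' => hx (MulAction.injective x e')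
    exact hx (huniq _ this e)
  have hhq_x : x • (h • ω₀) = h • ω₀ := by
    by_contra e
    have : h • (h • ω₀) ≠ h • ω₀ := fun e' => hh (MulAction.injective h e')
    exact hh (huniq _ e this)
  have key : (MulAction.toPerm (x⁻¹ * h⁻¹ * x * h) : Equiv.Perm Ω) =
      Equiv.swap ω₀ p * Equiv.swap ω₀ r := by
    ext ω
    rw [MulAction.toPerm_apply, Equiv.Perm.mul_apply, mul_smul, mul_smul, mul_smul]
    by_cases h1 : h • ω = ω
    · rw [h1]
      by_cases h2 : x • ω = ω
      · rw [h2, hhi ω h1, hxi ω h2]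
        have n1 : ω ≠ ω₀ := by rintro rfl; exact hx h2
        have n2 : ω ≠ p := by rintro rfl; exact hpmoved h1
        have n3 : ω ≠ r := by rintro rfl; exact hrmoved h2
        rw [Equiv.swap_apply_of_ne_of_ne n1 n3, Equiv.swap_apply_of_ne_of_ne n1 n2]
      · by_cases h3 : h • (x • ω) = x • ω
        · rw [hhi _ h3, inv_smul_smul]
          have n1 : ω ≠ ω₀ := by rintro rfl; exact hh h1
          have n2 : ω ≠ p := by rintro rfl; exact hpmoved h1
          have n3 : ω ≠ r := by rintro rfl; rw [hxr] at h3; exact hh h3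
          rw [Equiv.swap_apply_of_ne_of_ne n1 n3, Equiv.swap_apply_of_ne_of_ne n1 n2]
        · have hxω : x • (x • ω) ≠ x • ω := fun e' => h2 (MulAction.injective x e')
          have e1 : x • ω = ω₀ := huniq _ hxω h3
          have e2 : ω = r := by rw [hr, ← e1, inv_smul_smul]
          rw [e1, ← hp, hxi p hxp, e2, Equiv.swap_apply_right, Equiv.swap_apply_left]
    · by_cases h2 : x • ω = ω
      · by_cases h3 : x • (h • ω) = h • ω
        · rw [h3, inv_smul_smul, hxi ω h2]
          have n1 : ω ≠ ω₀ := by rintro rfl; exact hx h2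
          have n3 : ω ≠ r := by rintro rfl; exact hrmoved h2
          have n2 : ω ≠ p := by rintro rfl; rw [hhp] at h3; exact hx h3
          rw [Equiv.swap_apply_of_ne_of_ne n1 n3, Equiv.swap_apply_of_ne_of_ne n1 n2]
        · have hhω : h • (h • ω) ≠ h • ω := fun e' => h1 (MulAction.injective h e')
          have e1 : h • ω = ω₀ := huniq _ h3 hhω
          have e2 : ω = p := by rw [hp, ← e1, inv_smul_smul]
          rw [e1, hhi _ hxq_h, inv_smul_smul, e2, Equiv.swap_apply_of_ne_of_ne hpq hpr,
            Equiv.swap_apply_right]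
      · have e0 : ω = ω₀ := huniq ω h2 h1
        rw [e0, hhq_x, inv_smul_smul, ← hr, Equiv.swap_apply_left,
          Equiv.swap_apply_of_ne_of_ne hrq hpr.symm]
  rw [key]
  exact Equiv.Perm.isThreeCycle_swap_mul_swap_same hpq.symm hrq.symm hpr

/-- **Minimal degree bound** (Babai, Bochert): in a primitive permutation group not containing
the alternating group, an element moving `m ≥ 1` points satisfies `n ≤ (2 m)²`. -/
theorem card_le_sq_supp {G Ω : Type*} [Group G] [Finite G] [MulAction G Ω] [Fintype Ω]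
    [DecidableEq Ω] (hprim : IsPreprimitive G Ω)
    (hA : ¬ alternatingGroup Ω ≤ (MulAction.toPermHom G Ω).range)
    (x : G) (a : Ω) (hxa : x • a ≠ a) :
    Fintype.card Ω ≤ (2 * (Finset.univ.filter (fun c : Ω => x • c ≠ c)).card) ^ 2 := by
  classical
  have : Fintype G := Fintype.ofFinite G
  have : IsPreprimitive G Ω := hprim
  have : IsPretransitive G Ω := hprim.toIsPretransitive
  obtain ⟨S, hS⟩ : ∃ S : Finset Ω, S = Finset.univ.filter (fun c : Ω => x • c ≠ c) := ⟨_, rfl⟩
  rw [← hS]
  have hSmem : ∀ c, c ∈ S ↔ x • c ≠ c := by intro c; rw [hS]; simp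
  have haS : a ∈ S := (hSmem a).mpr hxa
  have hm : 1 ≤ S.card := Finset.card_pos.mpr ⟨a, haS⟩
  by_cases hnc : ∃ u w : Ω, u ≠ w ∧ ¬ (pairGraph G a (x • a)).Adj u w
  · have h1 := card_le_of_not_complete (G := G) a (x • a) (Ne.symm hxa) hnc
    have h2 := dcard_le_supp x a S (fun c hc => (hSmem c).mpr hc)
    calc Fintype.card Ω ≤ (2 * dcard G a (x • a)) ^ 2 := h1
      _ ≤ (2 * S.card) ^ 2 := Nat.pow_le_pow_left (by omega) 2
  · push Not at hnc
    by_contra hbig
    push Not at hbig
    have h2hom : ∀ u w : Ω, u ≠ w → ∀ u' w' : Ω, u' ≠ w' →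
        ∃ g : G, (g • u = u' ∧ g • w = w') ∨ (g • u = w' ∧ g • w = u') := by
      intro u w huw u' w' huw'
      obtain ⟨-, g₁, hg₁⟩ := hnc u w huw
      obtain ⟨-, g₂, hg₂⟩ := hnc u' w' huw'
      refine ⟨g₂ * g₁⁻¹, ?_⟩
      rcases hg₁ with ⟨rfl, rfl⟩ | ⟨rfl, rfl⟩ <;> rcases hg₂ with ⟨rfl, rfl⟩ | ⟨rfl, rfl⟩ <;>
        simp [mul_smul]
    have hlt : (S.card - 1) ^ 2 + 1 < Fintype.card Ω := by
      have : (S.card - 1) ^ 2 + 1 ≤ (2 * S.card) ^ 2 := by
        obtain ⟨M, hM⟩ : ∃ M, S.card = M + 1 := ⟨S.card - 1, by omega⟩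
        rw [hM, Nat.add_sub_cancel]
        nlinarith
      omega
    obtain ⟨y, hy⟩ := exists_inter_one h2hom S ⟨a, haS⟩ hlt
    obtain ⟨ω₀, hω₀⟩ := Finset.card_eq_one.mp hy
    have hω₀mem : ω₀ ∈ S.filter (fun s => y • s ∈ S) := by
      rw [hω₀]; exact Finset.mem_singleton_self _
    rw [Finset.mem_filter] at hω₀mem
    have h3 := threeCycle_of_inter x (y⁻¹ * x * y) ω₀ ((hSmem ω₀).mp hω₀mem.1) (by
        rw [mul_smul, mul_smul]
        intro e
        rw [inv_smul_eq_iff] at e
        exact (hSmem _).mp hω₀mem.2 e) (by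
        intro ω h1 h2
        have : ω ∈ S.filter (fun s => y • s ∈ S) := by
          rw [Finset.mem_filter]
          refine ⟨(hSmem ω).mpr h1, (hSmem _).mpr ?_⟩
          intro e
          apply h2
          rw [mul_smul, mul_smul, e, inv_smul_smul]
        rw [hω₀] at this
        exact Finset.mem_singleton.mp this)
    have hprim' : IsPreprimitive (↥(MulAction.toPermHom G Ω).range) Ω := by
      let φ : G → ↥(MulAction.toPermHom G Ω).range :=
        fun g => ⟨MulAction.toPermHom G Ω g, ⟨g, rfl⟩⟩
      let f : Ω →ₑ[φ] Ω := { toFun := id, map_smul' := fun g ω => rfl }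
      exact IsPreprimitive.of_surjective (f := f) Function.surjective_id
    exact hA (Equiv.Perm.alternatingGroup_le_of_isPreprimitive_of_isThreeCycle_mem hprim' h3
      ⟨_, rfl⟩)

end Final

end Cfsg.Agent.H95
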